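import Cfsg.Agent.Lib.Helper35.JR.Defs

/-!
# Project JR (S3206): package [S8]

Sylow 2-subgroups of `G` are elementary abelian of order 8, given `C_G(t) = ⟨t⟩ × E` and the
local data `ELoc E`.
-/

set_option autoImplicit false

namespace Cfsg.Agent.Lib.Helper53.JR

open Cfsg.Agent.Lib.Helper35.JR

open scoped Pointwise

universe u

/-- Every element of an internal direct product is a product. -/
theorem jr_idp_decomp {G : Type u} [Group G] {A E C : Subgroup G}
    (h : Cfsg.IsInternalDirectProduct A E C) {x : G} (hx : x ∈ C) :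
    ∃ a ∈ A, ∃ e ∈ E, x = a * e := by
  obtain ⟨hA, hE, hcomm, hinf, hsup⟩ := h
  have hc : ∀ (a : ↥A) (e : ↥E), Commute (A.subtype a) (E.subtype e) :=
    fun a e => hcomm a a.2 e e.2
  have hmem : x ∈ (MonoidHom.noncommCoprod A.subtype E.subtype hc).range := by
    rw [MonoidHom.noncommCoprod_range, Subgroup.range_subtype, Subgroup.range_subtype, hsup]
    exact hx
  obtain ⟨⟨a, e⟩, rfl⟩ := hmem
  exact ⟨a, a.2, e, e.2, by simp⟩

/-- The order of an internal direct product. -/
theorem jr_idp_card {G : Type u} [Group G] {A E C : Subgroup G}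
    (h : Cfsg.IsInternalDirectProduct A E C) :
    Nat.card ↥C = Nat.card ↥A * Nat.card ↥E := by
  obtain ⟨hA, hE, hcomm, hinf, hsup⟩ := h
  have hc : ∀ (a : ↥A) (e : ↥E), Commute (A.subtype a) (E.subtype e) :=
    fun a e => hcomm a a.2 e e.2
  set φ : ↥A × ↥E →* G := MonoidHom.noncommCoprod A.subtype E.subtype hc with hφ
  have hinj : Function.Injective φ := by
    rw [injective_iff_map_eq_one]
    rintro ⟨a, e⟩ hae
    have hae' : (a : G) * (e : G) = 1 := by
      simpa [hφ] using hae
    have h1 : (a : G) = (e : G)⁻¹ := eq_inv_of_mul_eq_one_left hae'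
    have h2 : (a : G) ∈ A ⊓ E :=
      Subgroup.mem_inf.mpr ⟨a.2, by rw [h1]; exact inv_mem e.2⟩
    rw [hinf, Subgroup.mem_bot] at h2
    have h3 : (e : G) = 1 := by
      rw [h2, one_mul] at hae'
      exact hae'
    exact Prod.ext (Subtype.ext h2) (Subtype.ext h3)
  have hrange : φ.range = C := by
    rw [hφ, MonoidHom.noncommCoprod_range, Subgroup.range_subtype, Subgroup.range_subtype, hsup]
  rw [← hrange, ← Nat.card_prod]
  exact (Nat.card_congr (MonoidHom.ofInjective hinj).toEquiv).symm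

theorem pkgS8 : PkgS8.{u} := by
  intro G _ _ hab t ht E hidp hE
  have hidp' := hidp
  obtain ⟨hA, hEC, hcomm, hinf, hsup⟩ := hidp
  obtain ⟨-, hE4, -⟩ := hE
  have ht2 : t ^ 2 = 1 := by rw [← ht]; exact pow_orderOf_eq_one t
  -- a Sylow 2-subgroup containing `t`
  have hpz : IsPGroup 2 ↥(Subgroup.zpowers t) :=
    IsPGroup.of_card (n := 1) (by rw [Nat.card_zpowers, ht, pow_one])
  obtain ⟨S₀, hS₀⟩ := hpz.exists_le_sylow
  have htS : t ∈ (S₀ : Subgroup G) := hS₀ (Subgroup.mem_zpowers t)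
  -- exponent 2 on `S₀`
  have hexp : ∀ x ∈ (S₀ : Subgroup G), x ^ 2 = 1 := by
    intro x hx
    have hxC : x ∈ Subgroup.centralizer ({t} : Set G) := by
      rw [Subgroup.mem_centralizer_iff]
      intro y hy
      rw [Set.mem_singleton_iff] at hy
      subst hy
      exact hab S₀ y htS x hx
    obtain ⟨a, ha, e, he, rfl⟩ := jr_idp_decomp hidp' hxC
    have haS : a ∈ (S₀ : Subgroup G) := hS₀ ha
    have heS : e ∈ (S₀ : Subgroup G) := by
      have : e = a⁻¹ * (a * e) := by group
      rw [this]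
      exact mul_mem (inv_mem haS) hx
    have hpE : IsPGroup 2 ↥((S₀ : Subgroup G).subgroupOf E) := S₀.isPGroup'.comap_subtype
    obtain ⟨T, hT⟩ := hpE.exists_le_sylow
    have heT : (⟨e, he⟩ : ↥E) ∈ (T : Subgroup ↥E) := hT (Subgroup.mem_subgroupOf.mpr heS)
    have he2 : e ^ 2 = 1 := by
      have := (hE4 T).2 _ heT
      exact congrArg Subtype.val this
    have ha2 : a ^ 2 = 1 := by
      obtain ⟨k, rfl⟩ := Subgroup.mem_zpowers_iff.mp ha
      rw [← zpow_natCast, ← zpow_mul, mul_comm, zpow_mul, zpow_natCast, ht2, one_zpow]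
    rw [(show Commute a e from hcomm a ha e he).mul_pow, ha2, he2, one_mul]
  -- the 2-part of `|G|`
  have hcardC : Nat.card ↥(Subgroup.centralizer ({t} : Set G)) = 2 * Nat.card ↥E := by
    rw [jr_idp_card hidp', Nat.card_zpowers, ht]
  obtain ⟨T⟩ : Nonempty (Sylow 2 ↥E) := inferInstance
  have hT4 : Nat.card ↥(T : Subgroup ↥E) = 4 := (hE4 T).1
  have hEpos : Nat.card ↥E ≠ 0 := Nat.card_pos.ne'
  have hGpos : Nat.card G ≠ 0 := Nat.card_pos.ne'
  have hfE : (Nat.card ↥E).factorization 2 = 2 := by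
    have h1 := T.card_eq_multiplicity
    rw [hT4] at h1
    exact (Nat.pow_right_injective (le_refl 2) (by simpa using h1)).symm
  have hfC : (Nat.card ↥(Subgroup.centralizer ({t} : Set G))).factorization 2 = 3 := by
    rw [hcardC, Nat.factorization_mul (by norm_num) hEpos]
    simp [hfE, Nat.Prime.factorization_self Nat.prime_two]
  have hCpos : Nat.card ↥(Subgroup.centralizer ({t} : Set G)) ≠ 0 := Nat.card_pos.ne'
  have hS₀C : (S₀ : Subgroup G) ≤ Subgroup.centralizer ({t} : Set G) := by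
    intro x hx
    rw [Subgroup.mem_centralizer_iff]
    intro y hy
    rw [Set.mem_singleton_iff] at hy
    subst hy
    exact hab S₀ y htS x hx
  have hfG : (Nat.card G).factorization 2 = 3 := by
    apply le_antisymm
    · have h1 : Nat.card ↥(S₀ : Subgroup G) ∣ Nat.card ↥(Subgroup.centralizer ({t} : Set G)) :=
        Subgroup.card_dvd_of_le hS₀C
      rw [S₀.card_eq_multiplicity] at h1
      rw [← hfC]
      exact (Nat.Prime.pow_dvd_iff_le_factorization Nat.prime_two hCpos).mp h1
    · have h1 : Nat.card ↥(Subgroup.centralizer ({t} : Set G)) ∣ Nat.card G :=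
        Subgroup.card_subgroup_dvd_card _
      have h2 : 2 ^ 3 ∣ Nat.card ↥(Subgroup.centralizer ({t} : Set G)) := by
        rw [Nat.Prime.pow_dvd_iff_le_factorization Nat.prime_two hCpos, hfC]
      exact (Nat.Prime.pow_dvd_iff_le_factorization Nat.prime_two hGpos).mp (h2.trans h1)
  intro S
  refine ⟨?_, ?_⟩
  · rw [S.card_eq_multiplicity, hfG]
    norm_num
  · obtain ⟨g, rfl⟩ := MulAction.exists_smul_eq G S₀ S
    intro x hx
    have hx' : x ∈ MulAut.conj g • (S₀ : Subgroup G) := hx
    rw [Subgroup.mem_pointwise_smul_iff_inv_smul_mem] at hx'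
    have h1 := hexp _ hx'
    rw [MulAut.smul_def, MulAut.conj_inv_apply] at h1
    have h2 : x ^ 2 = g * ((g⁻¹ * x * g) ^ 2) * g⁻¹ := by
      rw [pow_two, pow_two]
      group
    rw [h2, h1, mul_one, mul_inv_cancel]

end Cfsg.Agent.Lib.Helper53.JR
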